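import Mathlib
import Cfsg.Agent.H459.Gallery

/-!
# Latin quandle automorphisms (S4114, helper544): definitions

`x : MulAut G`, `G` a finite group.

* `Lat x` : `c (g⁻¹ x(g)) = h⁻¹ x(h)` and `x c = c` imply `c = 1`;
* `Hyp x` : `x ≠ 1`, `Lat x`, and `RC x` (helper459: `x` acts trivially on `M / Rad M` for every proper `x`-invariant
  subgroup `M`): the automorphism of a minimal counterexample;
* `Row G` : no automorphism of `G` satisfies `Hyp`.
-/

set_option autoImplicit false

namespace Cfsg.Agent.H544.LQ

open Cfsg Subgroup Cfsg.Agent.H459.Rad Cfsg.Agent.H459.Gallery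

variable {G : Type*} [Group G]

/-- The elements `g⁻¹ x(g)` are in different cosets of the fixed points. -/
def Lat (x : MulAut G) : Prop :=
  ∀ c g h : G, x c = c → c * (g⁻¹ * x g) = h⁻¹ * x h → c = 1

/-- the hypotheses on the automorphism of a minimal counterexample -/
structure Hyp (x : MulAut G) : Prop where
  ne : x ≠ 1
  lat : Lat x
  rc : RC x

/-- the row of the simple group `G` -/
def Row (G : Type*) [Group G] : Prop := ∀ x : MulAut G, ¬ Hyp x

end Cfsg.Agent.H544.LQ
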